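import Mathlib
import Cfsg.Agent.H561.RV.AutCrit
import Cfsg.Agent.H205.Gen
import Cfsg.Agent.H182.PGOrth
import Cfsg.Agent.H269.AO.Sub

/-!
# `AutOdd` for `POmega F Q` when all automorphisms are induced by semisimilarities (helper269)

* `solvable_out` : `Out S` is solvable if `D / Inn S` is a `2`-group and `Aut S / D` is abelian;
* `autOdd_of_good`.
-/

set_option autoImplicit false
set_option linter.unusedSectionVars false

namespace Cfsg.Agent.H269.AO

open Subgroup Cfsg Matrix QuadraticMap Cfsg.Agent.H185.OrthCent Cfsg.Agent.H198.Carriers Cfsg.Agent.H198.OrthFrame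
  Cfsg.Agent.LieClassical.OrthCore Cfsg.Agent.LieClassical.OrthTrans
  Cfsg.Agent.ClassicalGeometry.OrthSemi Cfsg.Agent.H205.Gen Cfsg.Agent.H561.RV
open Cfsg.Agent.H198.ClassesPlus (mu mu_spec)

universe u

theorem solvable_out {S : Type*} [Group S] [Finite S] (D : Subgroup (MulAut S)) [D.Normal]
    (hAD : ∀ φ ψ : MulAut S, φ * ψ * φ⁻¹ * ψ⁻¹ ∈ D) (hD : ∀ δ ∈ D, ∃ n : ℕ, δ ^ 2 ^ n ∈ Inn S) :
    Group.IsSolvable (Out S) := by
  have hfin : Finite (MulAut S) := Finite.of_injective (fun f : MulAut S => (f : S → S)) DFunLike.coe_injective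
  set mk := QuotientGroup.mk' (Inn S) with hmk
  have hmks : Function.Surjective mk := QuotientGroup.mk'_surjective _
  have hn : (D.map mk).Normal := Normal.map inferInstance mk hmks
  have h1 : IsPGroup 2 (D.map mk) := by
    rintro ⟨_, δ, hδ, rfl⟩
    obtain ⟨n, hn⟩ := hD δ hδ
    refine ⟨n, Subtype.ext ?_⟩
    rw [SubmonoidClass.coe_pow, OneMemClass.coe_one, ← map_pow]
    exact (QuotientGroup.eq_one_iff _).2 hn
  have h2 : Group.IsNilpotent (D.map mk) := h1.isNilpotent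
  have h3 : Group.IsSolvable (D.map mk) := inferInstance
  have h4 : Group.IsSolvable (Out S ⧸ D.map mk) := by
    refine Group.isSolvable_of_comm fun a b => ?_
    obtain ⟨a, rfl⟩ := QuotientGroup.mk'_surjective (D.map mk) a
    obtain ⟨b, rfl⟩ := QuotientGroup.mk'_surjective (D.map mk) b
    obtain ⟨a, rfl⟩ := hmks a
    obtain ⟨b, rfl⟩ := hmks b
    rw [← map_mul, ← map_mul]
    refine (QuotientGroup.eq_iff_div_mem).2 ?_
    rw [div_eq_mul_inv, _root_.mul_inv_rev, ← mul_assoc, ← map_inv, ← map_inv, ← map_mul, ← map_mul]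
    exact ⟨_, hAD a b, rfl⟩
  refine Group.isSolvable_of_ker_le_range (D.map mk).subtype (QuotientGroup.mk' (D.map mk)) ?_
  rw [QuotientGroup.ker_mk', range_subtype]

variable {F : Type u} [Field F] {ι : Type} [Fintype ι] [DecidableEq ι] {Q : QuadraticForm F (ι → F)}

theorem isSS_pow {σ : F ≃+* F} {c : F} {M : Equiv.Perm (ι → F)} (h : IsSS Q σ c M) (k : ℕ) :
    ∃ e, IsSS Q (σ ^ k) e (M ^ k) := by
  induction k with
  | zero => exact ⟨1, one_ne_zero, fun _ _ => rfl, fun _ _ => rfl, fun _ => by rw [one_mul]; rfl⟩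
  | succ k ih =>
    obtain ⟨e, ih⟩ := ih
    have h' := ih.mul h
    rw [← pow_succ] at h'
    rw [pow_succ σ k]
    exact ⟨_, h'⟩

/-- a product of two semisimilarities with inverse field automorphisms -/
theorem mem_range_of_refl (hG : Good Q) {M : Gam Q} {σ : F ≃+* F} {c : F} (h : IsSS Q σ c M.1) (h1 : σ = RingEquiv.refl F) :
    Phi hG M ∈ (S hG).range := by
  subst h1
  obtain ⟨g, hg⟩ := exists_sim_of_refl h
  exact ⟨g, by rw [← hg]; rfl⟩

/-- **similarities modulo inner automorphisms** -/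
theorem S_pow_four (hG : Good Q) (h4 : Fintype.card ι ≠ 4) (g : Sim Q) : S hG g ^ 2 ^ 2 ∈ Inn (POmega F ⇑Q) := by
  have h1 : mu hG ((scS Q (mu hG g))⁻¹ * (g * g)) = 1 := by
    rw [map_mul, map_inv, mu_scS, map_mul]
    group
  obtain ⟨s, h3⟩ : ∃ s : isometryGroup F ⇑Q, incI Q s = (scS Q (mu hG g))⁻¹ * (g * g) :=
    ⟨⟨_, mem_iso_of_mu hG h1⟩, rfl⟩
  have h5 : S hG (incI Q s) = S hG g * S hG g := by
    rw [h3, map_mul, map_inv, S_scS, inv_one, one_mul, map_mul]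
  have h6 : S hG g ^ 2 ^ 2 = S hG (incI Q (s ^ 2)) := by
    rw [map_pow, map_pow, h5, show (2 : ℕ) ^ 2 = 2 * 2 from rfl, pow_mul, pow_two (S hG g)]
  rw [h6, inn_eq hG]
  have h7 : s ^ 2 ∈ Omega F ⇑Q := H182.Orth.sq_mem_Omega Q (nondeg_bilin hG) h4 s
  revert h7
  generalize s ^ 2 = t
  intro h7
  exact ⟨incI Q t, mem_omGL.2 ⟨t.2, h7⟩, rfl⟩

/-- **The criterion for orthogonal groups.** -/
theorem autOdd_of_good [Finite F] (hG : Good Q) (h4 : Fintype.card ι ≠ 4) (hs : Function.Surjective (Phi hG))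
    (hfix : ∀ σ : F ≃+* F, Fix σ Q)
    (hP : ∃ P0 : Sylow 2 (POmega F ⇑Q), ∀ σ : F ≃+* F, Odd (orderOf σ) →
      ∀ β : POmega F ⇑Q ≃* POmega F ⇑Q, IsFieldAutPOmegaOf ⇑Q σ β → ∀ x ∈ P0, β x = x) :
    AutOdd (POmega F ⇑Q) := by
  obtain ⟨P0, hP0⟩ := hP
  have hfinA : Finite (F ≃+* F) := Finite.of_injective (fun f : F ≃+* F => (f : F → F)) DFunLike.coe_injective
  have hcyc : IsCyclic (F ≃+* F) := H477.isCyclic_ringAut F
  have hcomm : ∀ σ τ : F ≃+* F, σ * τ = τ * σ := by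
    obtain ⟨γ, hγ⟩ := hcyc.exists_generator
    intro σ τ
    obtain ⟨a, rfl⟩ := hγ σ
    obtain ⟨b, rfl⟩ := hγ τ
    exact ((Commute.refl γ).zpow_zpow a b).eq
  have hDn : (S hG).range.Normal := ⟨fun β hβ α => by
    obtain ⟨M, rfl⟩ := hs α
    exact conj_mem_range_S hG M hβ⟩
  have hID : Inn (POmega F ⇑Q) ≤ (S hG).range := by
    rw [inn_eq hG, MonoidHom.range_eq_map]
    exact map_mono le_top
  have hAD : ∀ φ ψ : MulAut (POmega F ⇑Q), φ * ψ * φ⁻¹ * ψ⁻¹ ∈ (S hG).range := by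
    intro φ ψ
    obtain ⟨M, rfl⟩ := hs φ
    obtain ⟨N, rfl⟩ := hs ψ
    obtain ⟨σ, c, hM⟩ := M.2
    obtain ⟨τ, e, hN⟩ := N.2
    rw [← map_inv, ← map_inv, ← map_mul, ← map_mul, ← map_mul]
    refine mem_range_of_refl hG (((hM.mul hN).mul hM.inv).mul hN.inv) ?_
    ext x
    change σ (τ (σ.symm (τ.symm x))) = x
    have h1 : σ (τ (σ.symm (τ.symm x))) = τ (σ (σ.symm (τ.symm x))) := DFunLike.congr_fun (hcomm σ τ) _
    rw [h1, RingEquiv.apply_symm_apply, RingEquiv.apply_symm_apply]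
  have hD : ∀ δ ∈ (S hG).range, ∃ n : ℕ, δ ^ 2 ^ n ∈ Inn (POmega F ⇑Q) := by
    rintro _ ⟨g, rfl⟩
    exact ⟨2, S_pow_four hG h4 g⟩
  -- the automorphisms centralising `P0`
  let C : Subgroup (MulAut (POmega F ⇑Q)) :=
    { carrier := {φ | ∀ x ∈ P0, φ x = x}
      one_mem' := fun x _ => rfl
      mul_mem' := fun {a b} ha hb x hx => by
        rw [MulAut.mul_apply, hb x hx, ha x hx]
      inv_mem' := fun {a} ha x hx => by
        have h := ha x hx
        nth_rw 1 [← h]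
        exact MulAut.inv_apply_self _ a x }
  refine autOdd_of_layers (solvable_out (S hG).range hAD hD) P0 C (S hG).range (fun φ hφ => hφ) hID hAD ?_ (Or.inl hD)
  intro φ
  obtain ⟨M, rfl⟩ := hs φ
  obtain ⟨σ, c, hM⟩ := M.2
  obtain ⟨a, d, hd, ho⟩ := Nat.exists_eq_two_pow_mul_odd (n := orderOf σ) (orderOf_pos σ).ne'
  have hτ : Odd (orderOf (σ ^ 2 ^ a)) := by
    rw [orderOf_pow_of_dvd (pow_ne_zero _ two_ne_zero) (ho ▸ dvd_mul_right _ _), ho,
      Nat.mul_div_cancel_left d (Nat.two_pow_pos a)]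
    exact hd
  refine ⟨a, ?_⟩
  have h1 : Phi hG M ^ 2 ^ a = Phi hG (frobG (hfix (σ ^ 2 ^ a))) * Phi hG ((frobG (hfix (σ ^ 2 ^ a)))⁻¹ * M ^ 2 ^ a) := by
    rw [← map_mul, ← map_pow, mul_inv_cancel_left]
  rw [h1]
  refine mul_mem_sup ?_ ?_
  · exact fun x hx => hP0 _ hτ _ ((isFieldAut_iff hG (hfix _) _).2 rfl) x hx
  · obtain ⟨e, h2⟩ := isSS_pow hM (2 ^ a)
    have h3 : IsSS Q (σ ^ 2 ^ a) 1 (frobG (hfix (σ ^ 2 ^ a))).1 := by
      refine ⟨one_ne_zero, fun u v => ?_, fun b v => ?_, fun v => ?_⟩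
      · rw [frobG_apply, frobG_apply, frobG_apply]
        funext i
        exact map_add _ _ _
      · rw [frobG_apply, frobG_apply]
        funext i
        exact map_mul _ _ _
      · rw [frobG_apply, one_mul]
        exact hfix _ v
    refine mem_range_of_refl hG (h3.inv.mul h2) ?_
    ext x
    change (σ ^ 2 ^ a).symm ((σ ^ 2 ^ a) x) = x
    rw [RingEquiv.symm_apply_apply]

end Cfsg.Agent.H269.AO
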